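import Cfsg.Agent.Char.Basic

/-!
Self-dual modules over finite fields.
-/

set_option autoImplicit false

namespace CF.Known

open Module

section Abelian

variable {F H V : Type*} [Field F] [CommGroup H] [AddCommGroup V] [Module F V]

theorem exists_field_model (ρ : Representation F H V) (h : ρ.IsIrreducible) :
    ∃ (I : Ideal (MonoidAlgebra F H)) (_ : I.IsMaximal) (e : V ≃ₗ[F] MonoidAlgebra F H ⧸ I),
      ∀ g v, e (ρ g v) = Ideal.Quotient.mk I (.of F H g) * e v := by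
  obtain ⟨I, hI, ⟨e⟩⟩ := isSimpleModule_iff_quot_maximal.1
    (ρ.irreducible_iff_isSimpleModule_asModule.1 h)
  refine ⟨I, hI, ρ.asModuleEquiv.symm.trans (e.restrictScalars F), fun g v => ?_⟩
  simp only [LinearEquiv.trans_apply, LinearEquiv.restrictScalars_apply,
    Representation.asModuleEquiv_symm_map_rho, map_smul]
  rfl

variable {K : Type*} [Field K] [Algebra F K] {ι : H →* K}

theorem exists_adjoint (hs : Submodule.span F (Set.range ι) = ⊤) {B : LinearMap.BilinForm F K}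
    (hB : B.Nondegenerate) (h : ∀ g x y, B (ι g * x) (ι g * y) = B x y) :
    ∃ σ : K →ₐ[F] K, ∀ g, σ (ι g) = ι g⁻¹ := by
  have k0 : ∀ g x y, B (ι g * x) y = B x (ι g⁻¹ * y) := fun g x y => by
    rw [← h g x, ← mul_assoc, ← map_mul, mul_inv_cancel, map_one, one_mul]
  have k1 : ∀ a, ∃ b, ∀ x y, B (a * x) y = B x (b * y) := fun a => by
    induction (hs.ge trivial : a ∈ _) using Submodule.span_induction with
    | mem _ h => obtain ⟨g, rfl⟩ := h; exact ⟨_, k0 g⟩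
    | zero => exact ⟨0, by simp⟩
    | add _ _ _ _ h1 h2 =>
      obtain ⟨b, hb⟩ := h1; obtain ⟨c, hc⟩ := h2
      exact ⟨b + c, by simp [add_mul, hb, hc]⟩
    | smul r _ _ h1 => obtain ⟨b, hb⟩ := h1; exact ⟨r • b, by simp [hb]⟩
  choose σ hσ using k1
  have u : ∀ {a b}, (∀ x y, B (a * x) y = B x (b * y)) → σ a = b := fun {a b} k =>
    sub_eq_zero.1 (hB.2 _ fun x => by simpa [sub_eq_zero] using (hσ a x 1).symm.trans (k x 1))
  exact ⟨{ toFun := σ
           map_one' := u (by simp)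
           map_mul' := fun a b => u fun x y => by rw [mul_assoc, hσ, hσ, mul_left_comm, mul_assoc]
           map_zero' := u (by simp)
           map_add' := fun a b => u fun x y => by simp [add_mul, hσ]
           commutes' := fun r => u fun x y => by simp [← Algebra.smul_def] }, fun g => u (k0 g)⟩

theorem selfDual_field [Fintype F] [Finite H] [FiniteDimensional F K] (hι : Function.Injective ι)
    (hs : Submodule.span F (Set.range ι) = ⊤) :
    (finrank F K = 1 → (∃ B : LinearMap.BilinForm F K, B.Nondegenerate ∧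
      ∀ g x y, B (ι g * x) (ι g * y) = B x y) → Nat.card H ≤ 2) ∧
    (2 ≤ finrank F K → ((∃ B : LinearMap.BilinForm F K, B.Nondegenerate ∧
      ∀ g x y, B (ι g * x) (ι g * y) = B x y) ↔
        Even (finrank F K) ∧ Nat.card H ∣ Fintype.card F ^ (finrank F K / 2) + 1)) := by
  haveI := Module.finite_of_finite F (M := K)
  haveI := isCyclic_of_injective_ringHom ι hι
  have k0 : ∀ i, (∀ g, (FiniteField.frobeniusAlgHom F K ^ i) (ι g) = ι g⁻¹) ↔
      Nat.card H ∣ Fintype.card F ^ i + 1 := fun i => by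
    rw [← IsCyclic.exponent_eq_card, Monoid.exponent_dvd_iff_forall_pow_eq_one]
    refine forall_congr' fun g => ?_
    rw [AlgHom.coe_pow, FiniteField.coe_frobeniusAlgHom, pow_iterate, pow_succ,
      mul_eq_one_iff_eq_inv, ← hι.eq_iff, map_pow]
  have k1 : (∃ B : LinearMap.BilinForm F K, B.Nondegenerate ∧
      ∀ g x y, B (ι g * x) (ι g * y) = B x y) → ∃ i < finrank F K, finrank F K ∣ i + i ∧
        Nat.card H ∣ Fintype.card F ^ i + 1 := fun ⟨B, hB, h⟩ => by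
    obtain ⟨σ, hσ⟩ := exists_adjoint hs hB h
    obtain ⟨⟨i, hi⟩, rfl⟩ := (FiniteField.bijective_frobeniusAlgHom_pow F K).2 σ
    refine ⟨i, hi, ?_, (k0 i).1 hσ⟩
    rw [← FiniteField.orderOf_frobeniusAlgHom, orderOf_dvd_iff_pow_eq_one, pow_add]
    refine AlgHom.toLinearMap_injective (LinearMap.ext_on_range hs fun g => ?_)
    exact (congrArg _ (hσ g)).trans ((hσ _).trans (by simp))
  refine ⟨fun h1 hB => ?_, fun h2 => ⟨fun hB => ?_, fun ⟨⟨m, hm⟩, h⟩ => ?_⟩⟩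
  · obtain ⟨i, h3, -, h4⟩ := k1 hB
    obtain rfl : i = 0 := by omega
    exact Nat.le_of_dvd two_pos h4
  · obtain ⟨i, h3, ⟨c, h4⟩, h5⟩ := k1 hB
    have h6 : i ≠ 0 := by
      rintro rfl
      have h7 : (⊤ : Submodule F K) ≤ F ∙ 1 := hs ▸ Submodule.span_le.2 (by
        rintro _ ⟨g, rfl⟩
        have := congrArg ι (orderOf_dvd_iff_pow_eq_one.1 ((orderOf_dvd_natCard g).trans h5))
        rcases sq_eq_one_iff.1 (by simpa using this : ι g ^ 2 = 1) with h | h <;> simp [h])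
      have := Submodule.finrank_mono h7
      rw [finrank_top, finrank_span_singleton one_ne_zero] at this
      omega
    obtain rfl : c = 1 := by
      rcases c with _ | _ | c
      · omega
      · rfl
      · nlinarith
    rw [mul_one] at h4
    exact ⟨⟨i, h4.symm⟩, by rwa [← h4, show (i + i) / 2 = i by omega]⟩
  · let σ := FiniteField.frobeniusAlgHom F K ^ (finrank F K / 2)
    have hσ : Function.Surjective σ := Finite.surjective_of_injective σ.toRingHom.injective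
    refine ⟨(Algebra.traceForm F K).compRight σ.toLinearMap, LinearMap.BilinForm.Nondegenerate.ofSeparatingLeft
      fun x hx => (traceForm_nondegenerate F K).1 x fun y => ?_, fun g x y => ?_⟩
    · obtain ⟨y, rfl⟩ := hσ y
      exact hx y
    · change Algebra.trace F K (ι g * x * σ _) = Algebra.trace F K (x * σ _)
      rw [map_mul σ, (k0 _).2 h, mul_mul_mul_comm, ← map_mul, mul_inv_cancel, map_one, one_mul]

end Abelian

section Decomp

variable {F G V : Type*} [Field F] [Group G] [AddCommGroup V] [Module F V]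
  (ρ : Representation F G V)

/-- `A` is an invariant form which is non-degenerate on `U`. -/
structure InvForm (U : Submodule F V) (A : LinearMap.BilinForm F V) : Prop where
  stab : ∀ g, ∀ u ∈ U, ρ g u ∈ U
  inv : ∀ g, ∀ x ∈ U, ∀ y ∈ U, A (ρ g x) (ρ g y) = A x y
  nd : ∀ x ∈ U, (∀ y ∈ U, A x y = 0) → x = 0

/-- `X` is a sum of an alternating part and a symmetric part. -/
def GoodSum (X : Submodule F V) : Prop := ∃ U W : Submodule F V, Disjoint U W ∧ U ⊔ W = X ∧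
  (∃ A, (∀ x ∈ U, A x x = 0) ∧ InvForm ρ U A) ∧
    (∃ S, (∀ x ∈ W, ∀ y ∈ W, S x y = S y x) ∧ InvForm ρ W S) ∧
    ((2 : F) = 0 → ∀ g, ∀ w ∈ W, ρ g w = w)

variable {ρ} {U U' X Y : Submodule F V} {A A' B : LinearMap.BilinForm F V}

theorem InvForm.bot : InvForm ρ ⊥ 0 :=
  ⟨fun g u hu => by simp [show u = 0 from hu], fun _ _ _ _ _ => rfl, fun _ hx _ => hx⟩

theorem exists_proj_pair (hd : Disjoint U U') : ∃ π π' : V →ₗ[F] V,
    ∀ u ∈ U, ∀ u' ∈ U', π (u + u') = u ∧ π' (u + u') = u' := by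
  obtain ⟨g, hg⟩ := (U.subtype.coprod U'.subtype).exists_leftInverse_of_injective (by
    rw [LinearMap.ker_coprod_of_disjoint_range] <;> simp [hd])
  refine ⟨U.subtype ∘ₗ .fst _ _ _ ∘ₗ g, U'.subtype ∘ₗ .snd _ _ _ ∘ₗ g, fun u hu u' hu' => ?_⟩
  have : g (u + u') = (⟨u, hu⟩, ⟨u', hu'⟩) := (DFunLike.congr_fun hg (⟨u, hu⟩, ⟨u', hu'⟩) :)
  simp [this, -map_add]

theorem InvForm.sup (h : InvForm ρ U A) (h' : InvForm ρ U' A') (hd : Disjoint U U') :
    ∃ C, InvForm ρ (U ⊔ U') C ∧ ∀ u ∈ U, ∀ u' ∈ U', ∀ v ∈ U, ∀ v' ∈ U',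
      C (u + u') (v + v') = A u v + A' u' v' := by
  obtain ⟨π, π', k⟩ := exists_proj_pair hd
  have e : ∀ u ∈ U, ∀ u' ∈ U', ∀ v ∈ U, ∀ v' ∈ U',
      (A.comp π π + A'.comp π' π') (u + u') (v + v') = A u v + A' u' v' :=
    fun u hu u' hu' v hv v' hv' => by
      simp only [LinearMap.add_apply, LinearMap.BilinForm.comp_apply, k u hu u' hu', k v hv v' hv']
  refine ⟨_, ⟨fun g x hx => ?_, fun g x hx y hy => ?_, fun x hx hy => ?_⟩, e⟩ <;>
    obtain ⟨u, hu, u', hu', rfl⟩ := Submodule.mem_sup.1 hx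
  · rw [map_add]
    exact Submodule.add_mem_sup (h.stab g u hu) (h'.stab g u' hu')
  · obtain ⟨v, hv, v', hv', rfl⟩ := Submodule.mem_sup.1 hy
    rw [map_add (ρ g), map_add (ρ g), e _ (h.stab g u hu) _ (h'.stab g u' hu') _ (h.stab g v hv) _
      (h'.stab g v' hv'), e u hu u' hu' v hv v' hv', h.inv g u hu v hv, h'.inv g u' hu' v' hv']
  · rw [h.nd u hu fun v hv => by
        simpa using (e u hu u' hu' v hv 0 (zero_mem _)).symm.trans
          (hy _ (Submodule.add_mem_sup hv (zero_mem _))),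
      h'.nd u' hu' fun v hv => by
        simpa using (e u hu u' hu' 0 (zero_mem _) v hv).symm.trans
          (hy _ (Submodule.add_mem_sup (zero_mem _) hv)), add_zero]

theorem GoodSum.sup (h : GoodSum ρ X) (h' : GoodSum ρ Y) (hd : Disjoint X Y) : GoodSum ρ (X ⊔ Y) := by
  obtain ⟨U, W, d, rfl, ⟨A, a1, a2⟩, ⟨S, s1, s2⟩, t⟩ := h
  obtain ⟨U', W', d', rfl, ⟨A', a1', a2'⟩, ⟨S', s1', s2'⟩, t'⟩ := h'
  obtain ⟨C, c1, c2⟩ := a2.sup a2' (hd.mono le_sup_left le_sup_left)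
  obtain ⟨D, d1, d2⟩ := s2.sup s2' (hd.mono le_sup_right le_sup_right)
  refine ⟨U ⊔ U', W ⊔ W', Submodule.disjoint_def.2 fun x hx hx' => ?_, sup_sup_sup_comm _ _ _ _,
    ⟨C, fun x hx => ?_, c1⟩, ⟨D, fun x hx y hy => ?_, d1⟩, fun h2 g x hx => ?_⟩ <;>
    obtain ⟨u, hu, u', hu', rfl⟩ := Submodule.mem_sup.1 hx
  · obtain ⟨w, hw, w', hw', e⟩ := Submodule.mem_sup.1 hx'
    have e1 : u - w = 0 := Submodule.disjoint_def.1 hd _
      (sub_mem (Submodule.mem_sup_left hu) (Submodule.mem_sup_right hw))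
      ((show u - w = w' - u' by rw [sub_eq_sub_iff_add_eq_add, ← e, add_comm]) ▸
        sub_mem (Submodule.mem_sup_right hw') (Submodule.mem_sup_left hu'))
    obtain rfl := sub_eq_zero.1 e1
    obtain rfl := add_left_cancel e
    rw [Submodule.disjoint_def.1 d _ hu hw, Submodule.disjoint_def.1 d' _ hu' hw', add_zero]
  · rw [c2 u hu u' hu' u hu u' hu', a1 u hu, a1' u' hu', add_zero]
  · obtain ⟨v, hv, v', hv', rfl⟩ := Submodule.mem_sup.1 hy
    rw [d2 u hu u' hu' v hv v' hv', d2 v hv v' hv' u hu u' hu', s1 u hu v hv, s1' u' hu' v' hv']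
  · rw [map_add, t h2 g u hu, t' h2 g u' hu']

theorem InvForm.map (hX : ∀ g, X ≤ X.comap (ρ g)) {U : Submodule F X} {A : LinearMap.BilinForm F X}
    {π : V →ₗ[F] X} (hπ : ∀ x : X, π x = x) (h : InvForm (ρ.subrepresentation X hX) U A) :
    InvForm ρ (U.map X.subtype) (A.comp π π) := by
  have e : ∀ g (x : X), π (ρ g x) = ρ.subrepresentation X hX g x := fun g x => hπ ⟨_, hX g x.2⟩
  refine ⟨?_, ?_, ?_⟩
  · rintro g _ ⟨u, hu, rfl⟩
    exact ⟨_, h.stab g u hu, rfl⟩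
  · rintro g _ ⟨u, hu, rfl⟩ _ ⟨v, hv, rfl⟩
    simpa [e, hπ] using h.inv g u hu v hv
  · rintro _ ⟨u, hu, rfl⟩ k
    rw [h.nd u hu fun v hv => by simpa [hπ] using k _ ⟨v, hv, rfl⟩, map_zero]

theorem GoodSum.map (hX : ∀ g, X ≤ X.comap (ρ g)) (h : GoodSum (ρ.subrepresentation X hX) ⊤) :
    GoodSum ρ X := by
  obtain ⟨U, W, d, e, ⟨A, a1, a2⟩, ⟨S, s1, s2⟩, t⟩ := h
  obtain ⟨π, hπ⟩ := X.subtype.exists_leftInverse_of_injective X.ker_subtype
  replace hπ : ∀ x : X, π x = x := DFunLike.congr_fun hπ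
  refine ⟨U.map X.subtype, W.map X.subtype, Submodule.disjoint_map X.subtype_injective d,
    by rw [← Submodule.map_sup, e, Submodule.map_subtype_top], ⟨_, ?_, a2.map hX hπ⟩,
    ⟨_, ?_, s2.map hX hπ⟩, ?_⟩
  · rintro _ ⟨u, hu, rfl⟩
    simpa [hπ] using a1 u hu
  · rintro _ ⟨u, hu, rfl⟩ _ ⟨v, hv, rfl⟩
    simpa [hπ] using s1 u hu v hv
  · rintro h2 g _ ⟨u, hu, rfl⟩
    exact congrArg Subtype.val (t h2 g u hu)

theorem GoodSum.of_alt (h : InvForm ρ U A) (h' : ∀ x ∈ U, A x x = 0) : GoodSum ρ U :=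
  ⟨U, ⊥, disjoint_bot_right, sup_bot_eq _, ⟨A, h', h⟩, ⟨0, fun _ _ _ _ => rfl, .bot⟩,
    fun _ g w hw => by simp [show w = 0 from hw]⟩

theorem exists_inv_compl [Finite G] [NeZero (Nat.card G : F)] (hX : ∀ g, ∀ x ∈ X, ρ g x ∈ X) :
    ∃ C, IsCompl X C ∧ ∀ g, ∀ x ∈ C, ρ g x ∈ C := by
  obtain ⟨C, hC⟩ := exists_isCompl (⟨X, fun g _ h => hX g _ h⟩ : Subrepresentation ρ)
  exact ⟨C.1, CF.Char.isCompl_toSubmodule hC, fun g _ h => C.2 g h⟩

theorem goodSum_of_minimal {θ : V →ₗ[F] V} (h1 : ∀ x y, B x (θ y) = B y x)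
    (h2 : ∀ g x, θ (ρ g x) = ρ g (θ x)) (h : InvForm ρ U B) (hθ : ∀ u ∈ U, θ u ∈ U)
    (hm : ∀ Y ≤ U, (∀ g, ∀ u ∈ Y, ρ g u ∈ Y) → (∀ u ∈ Y, θ u ∈ Y) → Y = ⊥ ∨ Y = U)
    (hθ' : ∀ u ∈ U, ∃ v ∈ U, θ v = u) : GoodSum ρ U := by
  have e : ∀ g x, ρ g (ρ g⁻¹ x) = x := fun g x => by simp
  have k : ∀ g, ∀ x ∈ U, ∀ y ∈ U, (B - B.flip) (ρ g x) (ρ g y) = (B - B.flip) x y :=
    fun g x hx y hy => by simp [h.inv g x hx y hy, h.inv g y hy x hx]
  rcases hm (U ⊓ LinearMap.BilinForm.orthogonal (B - B.flip) U) inf_le_left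
    (fun g u hu => ⟨h.stab g u hu.1, fun y hy => by
      rw [← e g y, k g _ (h.stab _ y hy) u hu.1]; exact hu.2 _ (h.stab _ y hy)⟩)
    (fun u hu => ⟨hθ u hu.1, fun y hy => by
      obtain ⟨v, hv, rfl⟩ := hθ' y hy
      simpa [h1, sub_eq_zero, ← h1 (θ v), eq_comm] using hu.2 v hv⟩) with h3 | h3
  · exact .of_alt (A := B - B.flip) ⟨h.stab, k, fun x hx hy => h3.le ⟨hx, fun y hy' => by
      simpa [sub_eq_zero] using (sub_eq_zero.1 (hy y hy')).symm⟩⟩ (by simp)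
  have s : ∀ x ∈ U, ∀ y ∈ U, B x y = B y x := fun x hx y hy => by
    simpa [sub_eq_zero] using (h3.ge hy).2 x hx
  by_cases h4 : ∀ x ∈ U, B x x = 0
  · exact .of_alt h h4
  refine ⟨⊥, U, disjoint_bot_left, bot_sup_eq _, ⟨0, fun _ _ => rfl, .bot⟩, ⟨B, s, h⟩,
    fun h5 g w hw => ?_⟩
  let Z : Submodule F V :=
    { carrier := {x | x ∈ U ∧ B x x = 0}
      add_mem' := fun {x y} hx hy => ⟨add_mem hx.1 hy.1, by
        simp only [map_add, LinearMap.add_apply, hx.2, hy.2, s x hx.1 y hy.1]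
        linear_combination B y x * h5⟩
      zero_mem' := ⟨zero_mem _, by simp⟩
      smul_mem' := fun c x hx => ⟨U.smul_mem c hx.1, by simp [hx.2]⟩ }
  rcases hm Z (fun _ h => h.1) (fun g u hu => ⟨h.stab g u hu.1, (h.inv g u hu.1 u hu.1).trans hu.2⟩)
    (fun u hu => ⟨hθ u hu.1, by rw [h1, h1, hu.2]⟩) with h6 | h6
  · refine sub_eq_zero.1 (h6.le ⟨sub_mem (h.stab g w hw) hw, ?_⟩)
    simp only [map_sub, LinearMap.sub_apply, h.inv g w hw w hw, s w hw _ (h.stab g w hw)]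
    linear_combination (B w w - B (ρ g w) w) * h5
  · exact absurd (fun x hx => (h6.ge hx).2) h4

end Decomp

universe u in
theorem goodSum_top {F G : Type*} [Field F] [Group G] [Finite G] [NeZero (Nat.card G : F)] (n : ℕ) :
    ∀ {V : Type u} [AddCommGroup V] [Module F V] [FiniteDimensional F V] (ρ : Representation F G V)
      (B : LinearMap.BilinForm F V), finrank F V = n → InvForm ρ ⊤ B → GoodSum ρ ⊤ := by
  induction n using Nat.strong_induction_on with | _ n ih =>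
  intro V _ _ _ ρ B hn h
  have IH : ∀ X : Submodule F V, X ≠ ⊤ → InvForm ρ X B → GoodSum ρ X := fun X h1 h2 =>
    .map (fun g => h2.stab g) (ih _ (hn ▸ Submodule.finrank_lt h1) _ (B.restrict X) rfl
      ⟨fun _ _ _ => trivial, fun g x _ y _ => h2.inv g x x.2 y y.2,
        fun x _ k => Subtype.ext (h2.nd x x.2 fun y hy => k ⟨y, hy⟩ trivial)⟩)
  have hB : B.Nondegenerate := .ofSeparatingLeft fun x k => h.nd x trivial fun y _ => k y
  have hi : ∀ g x y, B (ρ g x) (ρ g y) = B x y := fun g x y => h.inv g x trivial y trivial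
  have e : ∀ g x, ρ g (ρ g⁻¹ x) = x := fun g x => by simp
  let θ := (B.toDual hB).trans (B.flip.toDual hB.flip).symm
  have h1 : ∀ x y, B x (θ y) = B y x := fun x y =>
    LinearMap.BilinForm.apply_toDual_symm_apply (hB := hB.flip) (B y) x
  have h2 : ∀ g x, θ (ρ g x) = ρ g (θ x) := fun g x => sub_eq_zero.1 (hB.2 _ fun y => by
    rw [map_sub, ← e g y, h1, hi, hi, h1, sub_self])
  rcases eq_or_ne (⊤ : Submodule F V) ⊥ with h0 | h0
  · exact h0 ▸ .of_alt .bot fun _ _ => rfl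
  obtain ⟨M, -, ⟨m0, m1, m2⟩, m3⟩ := exists_minimal_le_of_wellFoundedLT (fun Y : Submodule F V =>
    Y ≠ ⊥ ∧ (∀ g, ∀ u ∈ Y, ρ g u ∈ Y) ∧ ∀ u ∈ Y, θ u ∈ Y) ⊤ ⟨h0, fun _ _ _ => trivial,
      fun _ _ => trivial⟩
  replace m3 : ∀ Y ≤ M, (∀ g, ∀ u ∈ Y, ρ g u ∈ Y) → (∀ u ∈ Y, θ u ∈ Y) → Y = ⊥ ∨ Y = M :=
    fun Y k1 k2 k3 => or_iff_not_imp_left.2 fun k0 => k1.antisymm (m3 ⟨k0, k2, k3⟩ k1)
  have m4 : ∀ u ∈ M, ∃ v ∈ M, θ v = u := (Submodule.eq_of_le_of_finrank_eq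
    (Submodule.map_le_iff_le_comap.2 m2) (θ.finrank_map_eq M)).ge
  set R := B.orthogonal M with hR
  have r1 : ∀ x ∈ R, ∀ m ∈ M, B x m = 0 := fun x hx m hm => by
    obtain ⟨v, hv, rfl⟩ := m4 m hm
    exact (h1 _ _).trans (hx v hv)
  have r2 : ∀ g, ∀ x ∈ R, ρ g x ∈ R := fun g x hx m hm => by
    rw [← e g m, hi]; exact hx _ (m1 _ m hm)
  have r3 : finrank F R = _ := B.finrank_orthogonal hB M
  have r4 := M.finrank_le
  rcases m3 (M ⊓ R) inf_le_left (fun g u hu => ⟨m1 g u hu.1, r2 g u hu.2⟩)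
    (fun u hu => ⟨m2 u hu.1, fun m hm => (h1 _ _).trans (r1 u hu.2 m hm)⟩) with h3 | h3
  · have h4 : M ⊔ R = ⊤ := Submodule.eq_top_of_finrank_eq (by
      have := M.finrank_sup_add_finrank_inf_eq R
      rw [h3, finrank_bot] at this
      omega)
    refine h4 ▸ GoodSum.sup (goodSum_of_minimal (θ := θ) h1 h2 ⟨m1, fun g x _ y _ => hi g x y,
      fun x hx k => h3.le ⟨hx, fun m hm => (h1 _ _).symm.trans (k _ (m2 m hm))⟩⟩ m2 m3 m4)
      (IH R (fun k => m0 (by rw [← h3, k, inf_top_eq])) ⟨r2, fun g x _ y _ => hi g x y,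
        fun x hx k => hB.1 x fun y => ?_⟩) (disjoint_iff.2 h3)
    obtain ⟨m, hm, r, hr, rfl⟩ := Submodule.mem_sup.1 (h4.ge trivial : y ∈ _)
    rw [map_add, r1 x hx m hm, k r hr, add_zero]
  replace h3 : M ≤ R := inf_eq_left.1 h3
  obtain ⟨M', c1, c2⟩ := exists_inv_compl r2
  obtain ⟨C, d1, d2⟩ := exists_inv_compl m1
  have h4 : M ⊔ C ⊓ R = R := by rw [← sup_inf_assoc_of_le _ h3, d1.sup_eq_top, top_inf_eq]
  obtain ⟨π, π', k⟩ := exists_proj_pair (c1.disjoint.mono_left h3)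
  have k1 : ∀ u ∈ M, ∀ u' ∈ M', ∀ v ∈ M, ∀ v' ∈ M', (B.comp π π' - (B.comp π π').flip) (u + u')
      (v + v') = B u v' - B v u' := fun u hu u' hu' v hv v' hv' => by
    simp only [LinearMap.sub_apply, LinearMap.BilinForm.flip_apply, LinearMap.BilinForm.comp_apply,
      k u hu u' hu', k v hv v' hv']
  have h5 : (M ⊔ M') ⊔ C ⊓ R = ⊤ := by rw [sup_right_comm, h4, c1.sup_eq_top]
  refine h5 ▸ GoodSum.sup (.of_alt (A := B.comp π π' - (B.comp π π').flip)
    ⟨fun g x hx => ?_, fun g x hx y hy => ?_, fun x hx hy => ?_⟩ (by simp))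
    (IH _ (fun k => m0 (d1.disjoint.eq_bot_of_le (le_top.trans (k.ge.trans inf_le_left))))
      ⟨fun g u hu => ⟨d2 g u hu.1, r2 g u hu.2⟩, fun g x _ y _ => hi g x y, fun x hx hy => ?_⟩)
    (Submodule.disjoint_def.2 fun x hx hy => ?_)
  rotate_left 3
  · refine Submodule.disjoint_def.1 d1.disjoint x ((Submodule.eq_of_le_of_finrank_eq
      (S₁ := M) (S₂ := B.flip.orthogonal R) (fun m hm r hr => hr m hm) ?_).ge fun r hr => ?_) hx.1
    · rw [B.flip.finrank_orthogonal hB.flip]; omega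
    · obtain ⟨m, hm, r, hr', rfl⟩ := Submodule.mem_sup.1 (h4.ge hr)
      exact (map_add (B x) _ _).trans (by rw [r1 x hx.2 m hm, hy r hr', add_zero])
  all_goals obtain ⟨u, hu, u', hu', rfl⟩ := Submodule.mem_sup.1 hx
  · obtain rfl := Submodule.disjoint_def.1 c1.disjoint u' ((add_mem_cancel_left (h3 hu)).1 hy.2) hu'
    rw [add_zero] at hy ⊢
    exact Submodule.disjoint_def.1 d1.disjoint u hu hy.1
  · rw [map_add]
    exact Submodule.add_mem_sup (m1 g u hu) (c2 g u' hu')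
  · obtain ⟨v, hv, v', hv', rfl⟩ := Submodule.mem_sup.1 hy
    rw [map_add (ρ g), map_add (ρ g), k1 _ (m1 g u hu) _ (c2 g u' hu') _ (m1 g v hv) _
      (c2 g v' hv'), k1 u hu u' hu' v hv v' hv', hi, hi]
  · rw [hB.1 u fun y => ?_, Submodule.disjoint_def.1 c1.disjoint u' (fun v hv => ?_) hu', add_zero]
    · simpa using (k1 u hu u' hu' v hv 0 (zero_mem _)).symm.trans
        (hy _ (Submodule.add_mem_sup hv (zero_mem _)))
    · obtain ⟨r, hr, v, hv, rfl⟩ := Submodule.mem_sup.1 (c1.sup_eq_top.ge trivial : y ∈ _)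
      simpa [hr u hu] using (k1 u hu u' hu' 0 (zero_mem _) v hv).symm.trans
        (hy _ (Submodule.add_mem_sup (zero_mem _) hv))

end CF.Known
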