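import Cfsg.Agent.Classical.Law
import Cfsg.Agent.Sig.Comp

/-!
A standard subgroup `SL_{n-1}(q)` of `SL_n(q)`.
-/

set_option autoImplicit false

namespace CF.Known

open Matrix Subgroup Cfsg CF.Sig CF.Classical

theorem isStandardSubgroup_of_unique {G : Type*} [Group G] [Finite G] {K : Subgroup G} {t : G}
    (hK : IsQuasisimple K) (ht : orderOf t = 2) (h1 : t ∈ centralizer (K : Set G))
    (h2 : ∀ s ∈ centralizer (K : Set G), orderOf s = 2 → s = t)
    (h3 : centralizer {t} ≤ normalizer (K : Set G))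
    (h4 : centralizer (K : Set G) ≤ centralizer (centralizer (K : Set G) : Set G)) :
    IsStandardSubgroup K := by
  haveI := Fact.mk Nat.prime_two
  have k1 : ∀ g s, s ∈ centralizer (K : Set G) → g * s * g⁻¹ ∈ centralizer (K : Set G) →
      orderOf s = 2 → g ∈ normalizer (K : Set G) := fun g s a b c => h3 (by
    obtain rfl := h2 s a c
    exact mem_centralizer_singleton_iff.2 (mul_inv_eq_iff_eq_mul.1 (h2 _ b
      (((MulAut.conj g).orderOf_eq s).trans c))))
  have k2 : normalizer (K : Set G) ≤ normalizer (centralizer (K : Set G) : Set G) :=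
    fun g hg => mem_normalizer_fintype fun c hc k hk => by
      have := hc _ ((mem_normalizer_iff''.1 hg k).1 hk)
      rw [← mul_right_inj g⁻¹, ← mul_left_inj g]
      simpa [mul_assoc] using this
  refine ⟨hK, ⟨even_iff_two_dvd.2 (ht ▸ orderOf_dvd_natCard _ h1), fun g hg => ?_⟩,
    fun g _ h => ?_, k2.antisymm fun g hg => k1 g t h1 ((mem_normalizer_iff.1 hg t).1 h1) ht⟩
  · refine Nat.not_even_iff_odd.1 fun h => hg (k2 ?_)
    obtain ⟨⟨_, a, s, b, rfl⟩, c⟩ := exists_prime_orderOf_dvd_card' 2 h.two_dvd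
    exact k1 g s b a (((MulAut.conj g).orderOf_eq s).symm.trans ((orderOf_coe ⟨_, _⟩).trans c))
  · have := commutator_eq_bot_iff_le_centralizer.1 ((commutator_comm _ _).trans h)
    exact qs_not_le_centralizer ((qs_map_iff_of_injective (MulAut.conj g).injective).2 hK)
      ((this.trans h4).trans (centralizer_le this))

theorem layer_eq_ker {C A : Type*} [Group C] [CommGroup A] (χ : C →* A)
    (h : IsQuasisimple χ.ker) : layer C = χ.ker :=
  le_antisymm (sSup_le fun _ hL => (qs_perfect hL.2).ge.trans ((commutator_mono le_top le_top).trans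
    (Abelianization.commutator_subset_ker χ))) (le_sSup ⟨Normal.isSubnormal inferInstance, h⟩)

theorem isStandardSubgroup_SL {ι : Type} [Fintype ι] [DecidableEq ι] {F : Type*} [Field F] [Finite F]
    (h2 : (2 : F) ≠ 0) (o : ι) (h4 : 4 ≤ Fintype.card ι) (hodd : Odd (Fintype.card ι))
    (t : SpecialLinearGroup ι F) (ht : t.1 = diagonal fun i => if i = o then 1 else -1) :
    IsStandardSubgroup ((layer (centralizer {t})).map (centralizer {t}).subtype) := by
  have hc : ∀ g : SpecialLinearGroup ι F, g ∈ centralizer {t} ↔ ∀ i ≠ o, g.1 i o = 0 ∧ g.1 o i = 0 :=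
    fun g => by
      rw [mem_centralizer_singleton_iff, show g * t = t * g ↔ g.1 * t.1 = t.1 * g.1 from
        Subtype.ext_iff, ht]
      refine ⟨fun h i hi => ⟨?_, ?_⟩, fun h => ext fun i j => ?_⟩
      · have := congrFun (congrFun h i) o
        simp [hi] at this
        exact (mul_eq_zero.1 (by linear_combination this)).resolve_left h2
      · have := congrFun (congrFun h o) i
        simp [hi] at this
        exact (mul_eq_zero.1 (by linear_combination -this)).resolve_left h2
      · by_cases hi : i = o <;> by_cases hj : j = o <;> simp [hi, hj, h]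
  let χ : centralizer {t} →* Fˣ := MonoidHom.toHomUnits ⟨⟨fun g => g.1.1 o o, by simp⟩, fun g h => by
    exact Finset.sum_eq_single o (fun i _ hi => mul_eq_zero_of_left ((hc _).1 g.2 i hi).2 _) (by simp)⟩
  have hK : ∀ g, g ∈ χ.ker.map (centralizer {t}).subtype ↔
      g.1 o o = 1 ∧ ∀ i ≠ o, g.1 i o = 0 ∧ g.1 o i = 0 := fun g =>
    ⟨fun ⟨x, h1, h3⟩ => h3 ▸ ⟨congrArg Units.val h1, (hc _).1 x.2⟩,
      fun h => ⟨⟨g, (hc g).2 h.2⟩, Units.ext h.1, rfl⟩⟩
  have hm : Fintype.card {i // i ≠ o} = Fintype.card ι - 1 := by simp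
  have hq : IsQuasisimple (χ.ker.map (centralizer {t}).subtype) := by
    refine qs_of_mulEquiv ⟨⟨commutator_SL_eq_top (ι := {i // i ≠ o}) (F := F) (by omega)⟩,
      isSimpleGroup_PSL_of_three_le (by omega)⟩ ((MonoidHom.ofInjective (blkSL_injective
        (Equiv.sumCompl (· ≠ o)))).trans (MulEquiv.subgroupCongr (Subgroup.ext fun g => ?_)))
    rw [hK]
    refine ⟨?_, fun h => ?_⟩
    · rintro ⟨A, rfl⟩
      rw [show (blkSL F _ A).1 = blkMat F _ A.1 from rfl]
      exact ⟨by simp [blkMat, Equiv.sumCompl_symm_apply_of_neg], fun i hi => by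
        simp [blkMat, Equiv.sumCompl_symm_apply_of_neg, Equiv.sumCompl_symm_apply_of_pos, hi]⟩
    · have : blkMat F (Equiv.sumCompl (· ≠ o)) (g.1.toSquareBlockProp (· ≠ o)) = g.1 := by
        ext i j
        by_cases hi : i = o <;> by_cases hj : j = o <;>
          simp [blkMat, Equiv.sumCompl_symm_apply_of_neg, Equiv.sumCompl_symm_apply_of_pos, hi, hj,
            h.1, h.2, toSquareBlockProp_def]
      exact ⟨⟨_, (det_blkMat _ _).symm.trans ((congrArg det this).trans g.2)⟩, Subtype.ext this⟩
  rw [layer_eq_ker χ ((qs_map_iff_of_injective (subtype_injective _)).1 hq)]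
  have hd : ∀ g ∈ centralizer (χ.ker.map (centralizer {t}).subtype : Set (SpecialLinearGroup ι F)),
      ∃ a b, g.1 = diagonal fun i => if i = o then b else a := fun g hg => by
    have k : ∀ i j, i ≠ j → i ≠ o → j ≠ o → ∀ k l, (single i j (1 : F) * g.1 : Matrix ι ι F) k l =
        (g.1 * single i j (1 : F) : Matrix ι ι F) k l :=
      fun i j h hi hj k l => by
        have : (1 + single i j 1) * g.1 = g.1 * (1 + single i j 1) :=
          congrArg Subtype.val (hg _ ((hK (SpecialLinearGroup.transvection h 1)).2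
          ⟨by simp [SpecialLinearGroup.transvection_coe, hi], fun k hk => by
            simp [SpecialLinearGroup.transvection_coe, hi, hj, hk, hk.symm]⟩))
        simp only [add_mul, mul_add, one_mul, mul_one, add_right_inj] at this
        rw [this]
    have ex : ∀ i, ∃ j, j ≠ i ∧ j ≠ o := fun i => by
      simpa using Finset.exists_mem_notMem_of_card_lt_card (s := {i, o}) (t := .univ)
        (Finset.card_le_two.trans_lt (by rw [Finset.card_univ]; omega))
    obtain ⟨i0, -, h0⟩ := ex o
    refine ⟨g.1 i0 i0, g.1 o o, ext fun i j => ?_⟩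
    rcases eq_or_ne i j with rfl | h
    · rw [diagonal_apply_eq]
      split_ifs with hi
      · rw [hi]
      · rcases eq_or_ne i0 i with rfl | h
        exacts [rfl, by simpa using k i0 i h h0 hi i0 i]
    rw [diagonal_apply_ne _ h]
    by_cases hi : i = o
    · obtain ⟨l, l1, l2⟩ := ex j
      simpa [h] using (k j l l1.symm (hi ▸ h.symm) l2 i l).symm
    · obtain ⟨l, l1, l2⟩ := ex i
      simpa [h.symm] using k l i l1 l2 hi l j
  have h1 : (-1 : F) ≠ 1 := fun h => h2 (by linear_combination -h)
  haveI := Fintype.one_lt_card_iff_nontrivial.1 (by omega : 1 < Fintype.card ι)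
  obtain ⟨i0, h0⟩ := exists_ne o
  refine isStandardSubgroup_of_unique (t := t) hq (orderOf_eq_prime (Subtype.ext ?_) fun h => ?_)
    (fun _ ⟨x, _, h⟩ => h ▸ mem_centralizer_singleton_iff.1 x.2) (fun s hs h => Subtype.ext ?_)
    (fun g hg => mem_normalizer_fintype fun _ ⟨x, h1, h3⟩ => ⟨_, (MonoidHom.normal_ker χ).conj_mem x h1
      ⟨g, hg⟩, h3 ▸ rfl⟩) fun g hg s hs => Subtype.ext ?_
  · change t.1 ^ 2 = 1
    rw [ht, diagonal_pow, ← diagonal_one]
    exact congrArg _ (funext fun i => by by_cases h : i = o <;> simp [h])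
  · simpa [h, h0, h1.symm] using congrFun (congrFun ht i0) i0
  · obtain ⟨a, b, e⟩ := hd s hs
    have e1 := s.2
    have e2 : s.1 ^ 2 = 1 := congrArg Subtype.val (h ▸ pow_orderOf_eq_one s)
    rw [e, diagonal_pow] at e2
    have e3 := congrFun (congrFun e2 i0) i0
    simp [h0, -sq_eq_one_iff] at e3
    obtain ⟨k, hk⟩ := hodd
    rw [e, det_diagonal, Finset.prod_ite] at e1
    simp [Finset.filter_eq', Finset.filter_ne', hk, pow_mul, e3] at e1
    rw [e, ht, e1, (sq_eq_one_iff.1 e3).resolve_left fun k => ?_]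
    rw [show s = 1 from Subtype.ext (by simp [e, e1, k]), orderOf_one] at h
    omega
  · obtain ⟨a, b, e⟩ := hd s hs
    obtain ⟨a', b', e'⟩ := hd g hg
    simp [e, e', mul_comm]

end CF.Known
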